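import Cfsg.Agent.H934.RowTwD4
import Cfsg.Agent.H554.RG
import Cfsg.Agent.H504.ZerosCyc
import Cfsg.Agent.H504.ZerosMod
import Cfsg.Agent.H678.CCData
import Cfsg.Agent.H129.CycT2
import Cfsg.Agent.S1067
import Cfsg.Agent.S1071

/-!
# `³D₄(q)`: the torus `T₁₂` of order `q⁴ - q² + 1` and the parabolic subgroups (helper911)

* `index_zero`, `index_one` : the indices of the maximal parabolic subgroups;
* `coprime_PJ` : `q⁴ - q² + 1` is prime to the orders of the proper parabolic subgroups;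
* `exists_torus` : the torus, its `CCData` (`e = 4`, `s = (q⁴ - q²)/4 ≥ 7`), it meets no proper parabolic subgroup.
-/

set_option autoImplicit false
set_option linter.unusedSectionVars false

namespace Cfsg.Agent.H911.TW.D4

open Cfsg CoxeterSystem Cfsg.Agent.ChevalleyStructure.CoxeterGeom Cfsg.Agent.Tits.Roots Cfsg.Agent.Tits.Core
  Cfsg.Agent.Tits.Exchange Cfsg.Agent.Nodes.Reps Cfsg.Agent.Nodes.BNOf Cfsg.Agent.Nodes.StabComb
  Cfsg.Agent.Nodes.Bruhat Cfsg.Agent.Nodes.OppDec Cfsg.Agent.Nodes.LeviDec Cfsg.Agent.Nodes.NormalForm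
open Cfsg.Lie Cfsg.Agent.ChevalleyStructure Cfsg.Agent.Nodes.RGDTwD4 Cfsg.Agent.H35.ExcIdx
open Cfsg.Agent.Nodes.RGDTwGen Cfsg.Agent.Nodes.RGDChev Cfsg.Agent.Nodes.RGDFold
open Cfsg.Agent.H504.Zeros Cfsg.Agent.H504.ZeroTI Cfsg.Agent.H504.ZerosMod Cfsg.Agent.H129.CycT
  Cfsg.Agent.Characters.CCBasic Cfsg.Agent.Characters.CCEstimates

universe u

variable {K : Type u} [Field K] [Fintype K] {q : ℕ} {φ : K →+* K}

/-- the equation of the index of `P_{i}` -/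
theorem index_mul (hq : IsPrimePow q) (hK : Fintype.card K = q ^ 3) (hφ : ∀ x, φ x = x ^ q) (i : Fin 2) :
    (PJ CoxeterMatrix.G₂.toCoxeterSystem isCartan (T K q) (X φ q) {i}).index *
      ((if i = 0 then q else q ^ 3) + 1) * ((q - 1) ^ 2 * (q ^ 2 + q + 1)) =
      (q ^ 2 - 1) * (q ^ 6 - 1) * (q ^ 8 + q ^ 4 + 1) := by
  have : Finite (GL chevD4.Idx K) := inferInstance
  obtain ⟨p, hcp⟩ := CharP.exists K
  have hp' : Fact p.Prime := ⟨CharP.char_is_prime K p⟩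
  have h2 : 2 ≤ q := hq.two_le
  obtain ⟨r, f, hr, hf, hrf⟩ := hq
  have hr' : r.Prime := hr.nat_prime
  have hpr : p = r := by
    obtain ⟨n, hpp, hn⟩ := FiniteField.card K p
    have h3 : p ∣ r := by
      have h4 : p ∣ Fintype.card K := by rw [hn]; exact dvd_pow_self p n.pos.ne'
      rw [hK, ← hrf, ← pow_mul] at h4
      exact hpp.dvd_of_dvd_pow h4
    exact (Nat.prime_dvd_prime_iff_eq hpp hr').1 h3
  subst hpr
  have hq' : IsPrimePow q := ⟨p, f, hr, hf, hrf⟩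
  have hfin : Finite CoxeterMatrix.G₂.Group := Nodes.RGDFold.finite_W (hp := hp)
    CoxeterMatrix.G₂.toCoxeterSystem isCartan foldData
  have hR := rgd CoxeterMatrix.G₂.toCoxeterSystem hK hφ p
  have hG1 : Nodes.RGDLib.G1 CoxeterMatrix.G₂.toCoxeterSystem isCartan (X φ q) = ⊤ := G1_eq_top _ hK hφ
  have hGG : GG CoxeterMatrix.G₂.toCoxeterSystem isCartan (T K q) (X φ q) = ⊤ := by
    rw [eq_top_iff, ← hG1]
    exact le_sup_right
  have hc := H934.RowTwD4.card_X hφ (by omega) hK i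
  have hN : Nat.card ↥(PJ CoxeterMatrix.G₂.toCoxeterSystem isCartan (T K q) (X φ q) {i}) =
      ((if i = 0 then q else q ^ 3) + 1) * Nat.card ↥(RGD.B CoxeterMatrix.G₂.toCoxeterSystem isCartan (T K q) (X φ q)) := by
    rw [← hc, ← H554.RG.relIndex_B_PJ_singleton hR i, mul_comm]
    have h2 := Subgroup.relIndex_mul_relIndex ⊥ _ _ bot_le
      (B_le_PJ (cs := CoxeterMatrix.G₂.toCoxeterSystem) (h := isCartan) (T := T K q) (X := X φ q) (J := {i}))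
    rw [Subgroup.relIndex_bot_left, Subgroup.relIndex_bot_left] at h2
    exact h2.symm
  have hT : 1 * Nat.card ↥(T K q) = (q - 1) ^ 2 * (q ^ 2 + q + 1) := by
    rw [one_mul, ← Cfsg.Agent.S1106.result hq' hK]
    exact Nat.card_congr (Subgroup.subgroupOfEquivOfLe inf_le_right).toEquiv
  have hS : 1 * Nat.card ↥(twistedD4 K q) = p ^ (f * 12) * ((q ^ 2 - 1) * (q ^ 6 - 1) * (q ^ 8 + q ^ 4 + 1)) := by
    rw [one_mul, Cfsg.Agent.S1067.result hq' hK, pow_mul, hrf]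
    ring
  have hpq : p ∣ q := by rw [← hrf]; exact dvd_pow_self p hf.ne'
  have hsub : ∀ k, k ≠ 0 → ¬ p ∣ q ^ k - 1 := by
    intro k hk h3
    have h4 : p ∣ q ^ k := dvd_pow hpq hk
    have h5 : 1 ≤ q ^ k := Nat.one_le_pow _ _ (by omega)
    have h6 := Nat.dvd_sub h4 h3
    rw [Nat.sub_sub_self h5] at h6
    exact hr'.one_lt.ne' (Nat.dvd_one.1 h6)
  have hP : ¬ p ∣ (q ^ 2 - 1) * (q ^ 6 - 1) * (q ^ 8 + q ^ 4 + 1) := by
    rw [hr'.dvd_mul, hr'.dvd_mul]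
    rintro ((h3 | h3) | h3)
    · exact hsub 2 (by norm_num) h3
    · exact hsub 6 (by norm_num) h3
    · have h4 : p ∣ q ^ 8 + q ^ 4 := dvd_add (dvd_pow hpq (by norm_num)) (dvd_pow hpq (by norm_num))
      exact hr'.one_lt.ne' (Nat.dvd_one.1 ((Nat.dvd_add_right h4).1 h3))
  exact index_eq hR hGG hN (d := 1) (fun h => hr'.one_lt.ne' (Nat.dvd_one.1 h)) hT hS hP

theorem arith_zero {q i : ℕ} (hq : 2 ≤ q) (h : i * (q + 1) * ((q - 1) ^ 2 * (q ^ 2 + q + 1)) =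
    (q ^ 2 - 1) * (q ^ 6 - 1) * (q ^ 8 + q ^ 4 + 1)) : i = (q ^ 8 + q ^ 4 + 1) * (q ^ 3 + 1) := by
  obtain ⟨x, rfl⟩ : ∃ x, q = x + 1 := ⟨q - 1, by omega⟩
  have e1 : (x + 1) ^ 2 - 1 = x * (x + 2) := by
    apply Nat.sub_eq_of_eq_add; ring
  have e2 : (x + 1) ^ 6 - 1 = x * ((x + 1) ^ 2 + (x + 1) + 1) * (1 + (x + 1) ^ 3) := by
    apply Nat.sub_eq_of_eq_add; ring
  rw [e1, e2, Nat.add_sub_cancel] at h
  have hpos : 0 < (x + 1 + 1) * (x ^ 2 * ((x + 1) ^ 2 + (x + 1) + 1)) := by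
    have : 0 < x := by omega
    positivity
  apply Nat.eq_of_mul_eq_mul_right hpos
  calc i * ((x + 1 + 1) * (x ^ 2 * ((x + 1) ^ 2 + (x + 1) + 1)))
      = i * (x + 1 + 1) * (x ^ 2 * ((x + 1) ^ 2 + (x + 1) + 1)) := by ring
    _ = _ := by rw [h]; ring

theorem arith_one {q i : ℕ} (hq : 2 ≤ q) (h : i * (q ^ 3 + 1) * ((q - 1) ^ 2 * (q ^ 2 + q + 1)) =
    (q ^ 2 - 1) * (q ^ 6 - 1) * (q ^ 8 + q ^ 4 + 1)) : i = (q ^ 8 + q ^ 4 + 1) * (q + 1) := by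
  obtain ⟨x, rfl⟩ : ∃ x, q = x + 1 := ⟨q - 1, by omega⟩
  have e1 : (x + 1) ^ 2 - 1 = x * (x + 2) := by
    apply Nat.sub_eq_of_eq_add; ring
  have e2 : (x + 1) ^ 6 - 1 = x * ((x + 1) ^ 2 + (x + 1) + 1) * (1 + (x + 1) ^ 3) := by
    apply Nat.sub_eq_of_eq_add; ring
  rw [e1, e2, Nat.add_sub_cancel] at h
  have hpos : 0 < ((x + 1) ^ 3 + 1) * (x ^ 2 * ((x + 1) ^ 2 + (x + 1) + 1)) := by
    have : 0 < x := by omega
    positivity
  apply Nat.eq_of_mul_eq_mul_right hpos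
  calc i * (((x + 1) ^ 3 + 1) * (x ^ 2 * ((x + 1) ^ 2 + (x + 1) + 1)))
      = i * ((x + 1) ^ 3 + 1) * (x ^ 2 * ((x + 1) ^ 2 + (x + 1) + 1)) := by ring
    _ = _ := by rw [h]; ring

/-- `|G : P_{0}| = (q⁸ + q⁴ + 1)(q³ + 1)` -/
theorem index_zero (hq : IsPrimePow q) (hK : Fintype.card K = q ^ 3) (hφ : ∀ x, φ x = x ^ q) :
    (PJ CoxeterMatrix.G₂.toCoxeterSystem isCartan (T K q) (X φ q) {0}).index =
      (q ^ 8 + q ^ 4 + 1) * (q ^ 3 + 1) :=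
  arith_zero hq.two_le (index_mul hq hK hφ 0)

/-- `|G : P_{1}| = (q⁸ + q⁴ + 1)(q + 1)` -/
theorem index_one (hq : IsPrimePow q) (hK : Fintype.card K = q ^ 3) (hφ : ∀ x, φ x = x ^ q) :
    (PJ CoxeterMatrix.G₂.toCoxeterSystem isCartan (T K q) (X φ q) {1}).index =
      (q ^ 8 + q ^ 4 + 1) * (q + 1) :=
  arith_one hq.two_le (index_mul hq hK hφ 1)

/-- `|P_{i}| = q¹² (q_i + 1) (q - 1)² (q² + q + 1)` -/
theorem card_PJ (hq : IsPrimePow q) (hK : Fintype.card K = q ^ 3) (hφ : ∀ x, φ x = x ^ q) (i : Fin 2) :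
    Nat.card (PJ CoxeterMatrix.G₂.toCoxeterSystem isCartan (T K q) (X φ q) {i}) =
      q ^ 12 * (((if i = 0 then q else q ^ 3) + 1) * ((q - 1) ^ 2 * (q ^ 2 + q + 1))) := by
  have hfin : Finite ↥(twistedD4 K q) := inferInstance
  have h1 := index_mul hq hK hφ i
  have h2 := Subgroup.card_mul_index (PJ CoxeterMatrix.G₂.toCoxeterSystem isCartan (T K q) (X φ q) {i})
  rw [S1067.result hq hK] at h2
  have h0 : 0 < (PJ CoxeterMatrix.G₂.toCoxeterSystem isCartan (T K q) (X φ q) {i}).index :=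
    Nat.pos_of_ne_zero Subgroup.index_ne_zero_of_finite
  apply Nat.eq_of_mul_eq_mul_right h0
  rw [h2, mul_assoc, mul_assoc, ← mul_assoc (q ^ 2 - 1), ← h1]
  ring

theorem not_dvd {N r : ℕ} (hN : N = q ^ 4 - q ^ 2 + 1) (hr : r.Prime) (hrN : r ∣ N) :
    ¬ r ∣ q ∧ ¬ r ∣ q ^ 6 - 1 := by
  have hq0 : q ≠ 0 ∨ q = 0 := by tauto
  rcases hq0 with hq0 | rfl
  swap
  · simp at hN
    subst hN
    exact absurd (Nat.dvd_one.1 hrN) hr.one_lt.ne'
  have hle : q ^ 2 ≤ q ^ 4 := Nat.pow_le_pow_right (Nat.pos_of_ne_zero hq0) (by norm_num)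
  have e4 : q ^ 4 = q ^ 2 * q ^ 2 := by ring
  have h1 : N + q ^ 2 = q ^ 4 + 1 := by omega
  constructor
  · intro h
    have h2 : r ∣ q ^ 4 + 1 := by rw [← h1]; exact dvd_add hrN (dvd_pow h (by norm_num))
    exact hr.one_lt.ne' (Nat.dvd_one.1 ((Nat.dvd_add_right (dvd_pow h (by norm_num))).1 h2))
  · intro h
    have h2 : N * (q ^ 2 + 1) = q ^ 6 + 1 := by
      have : (N + q ^ 2) * (q ^ 2 + 1) = (q ^ 4 + 1) * (q ^ 2 + 1) := by rw [h1]
      have e : (q ^ 4 + 1) * (q ^ 2 + 1) = q ^ 6 + 1 + q ^ 2 * (q ^ 2 + 1) := by ring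
      rw [add_mul, e] at this
      exact Nat.add_right_cancel this
    have h3 : r ∣ q ^ 6 + 1 := by rw [← h2]; exact dvd_mul_of_dvd_left hrN _
    have h4 : 1 ≤ q ^ 6 := Nat.one_le_pow _ _ (Nat.pos_of_ne_zero hq0)
    have h5 : r ∣ 2 := by
      have := Nat.dvd_sub h3 h
      have e : q ^ 6 + 1 - (q ^ 6 - 1) = 2 := by omega
      rwa [e] at this
    have h6 : r = 2 := (Nat.prime_dvd_prime_iff_eq hr Nat.prime_two).1 h5
    subst h6
    have h7 : 2 ∣ q ^ 4 - q ^ 2 := by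
      have e : q ^ 4 - q ^ 2 = q * (q * (q ^ 2 - 1)) := by
        rw [Nat.mul_sub, Nat.mul_sub]
        ring_nf
      rcases Nat.even_or_odd q with h8 | h8
      · exact Nat.dvd_sub (dvd_pow h8.two_dvd (by norm_num)) (dvd_pow h8.two_dvd (by norm_num))
      · exact (Nat.Odd.sub_odd (h8.pow) (h8.pow)).two_dvd
    rw [hN] at hrN
    have := (Nat.dvd_add_right h7).1 hrN
    omega

theorem prime_dvd {N : ℕ} (hq : IsPrimePow q) (hK : Fintype.card K = q ^ 3) (hφ : ∀ x, φ x = x ^ q)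
    (hN : N = q ^ 4 - q ^ 2 + 1) (i : Fin 2) {r : ℕ} (hr : r.Prime) (hrN : r ∣ N) :
    ¬ r ∣ Nat.card (PJ CoxeterMatrix.G₂.toCoxeterSystem isCartan (T K q) (X φ q) {i}) := by
  obtain ⟨h1, h2⟩ := not_dvd hN hr hrN
  have h0 : 2 ≤ q := hq.two_le
  obtain ⟨x, rfl⟩ : ∃ x, q = x + 1 := ⟨q - 1, by omega⟩
  have e6 : (x + 1) ^ 6 - 1 = x * ((x + 1) ^ 2 + (x + 1) + 1) * (1 + (x + 1) ^ 3) := by
    apply Nat.sub_eq_of_eq_add; ring
  rw [card_PJ hq hK hφ i]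
  intro h
  rw [Nat.add_sub_cancel] at h
  apply h2
  rw [e6]
  rcases hr.dvd_mul.1 h with h | h
  · exact absurd (hr.dvd_of_dvd_pow h) h1
  rcases hr.dvd_mul.1 h with h | h
  · have h3 : r ∣ 1 + (x + 1) ^ 3 := by
      split_ifs at h
      · have e : 1 + (x + 1) ^ 3 = (x + 1 + 1) * (x ^ 2 + x + 1) := by ring
        rw [e]
        exact dvd_mul_of_dvd_left h _
      · rwa [add_comm]
    exact dvd_mul_of_dvd_right h3 _
  rcases hr.dvd_mul.1 h with h | h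
  · exact dvd_mul_of_dvd_left (dvd_mul_of_dvd_left (hr.dvd_of_dvd_pow h) _) _
  · exact dvd_mul_of_dvd_left (dvd_mul_of_dvd_right h _) _

/-- elements of order dividing `q⁴ - q² + 1` are in no proper parabolic subgroup -/
theorem notmem (hq : IsPrimePow q) (hK : Fintype.card K = q ^ 3) (hφ : ∀ x, φ x = x ^ q)
    {a : ↥(twistedD4 K q)} (ha : orderOf a ∣ q ^ 4 - q ^ 2 + 1) (ha1 : a ≠ 1) {J : Set (Fin 2)} (hJ : J ≠ Set.univ) :
    a ∉ PJ CoxeterMatrix.G₂.toCoxeterSystem isCartan (T K q) (X φ q) J := by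
  have hfin : Finite ↥(twistedD4 K q) := inferInstance
  obtain ⟨p, hcp⟩ := CharP.exists K
  have hp' : Fact p.Prime := ⟨CharP.char_is_prime K p⟩
  have hfinW : Finite CoxeterMatrix.G₂.Group := Nodes.RGDFold.finite_W (hp := hp)
    CoxeterMatrix.G₂.toCoxeterSystem isCartan foldData
  have hR := rgd CoxeterMatrix.G₂.toCoxeterSystem hK hφ p
  obtain ⟨i, hi⟩ : ∃ i : Fin 2, J ⊆ {i} := by
    obtain ⟨j, hj⟩ := (Set.ne_univ_iff_exists_notMem J).1 hJ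
    refine ⟨1 - j, fun k hk => ?_⟩
    have hkj : k ≠ j := fun e => hj (e ▸ hk)
    rw [Set.mem_singleton_iff]
    exact (by decide : ∀ k j : Fin 2, k ≠ j → k = 1 - j) k j hkj
  intro h
  have h1 := H554.RG.PJ_mono hR hi h
  have h2 : orderOf a ∣ Nat.card (PJ CoxeterMatrix.G₂.toCoxeterSystem isCartan (T K q) (X φ q) {i}) := by
    have := orderOf_dvd_natCard (⟨a, h1⟩ : PJ CoxeterMatrix.G₂.toCoxeterSystem isCartan (T K q) (X φ q) {i})
    rwa [← Subgroup.orderOf_coe] at this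
  obtain ⟨r, hr, hra⟩ := Nat.exists_prime_and_dvd (n := orderOf a) (by rwa [Ne, orderOf_eq_one_iff])
  exact prime_dvd hq hK hφ rfl i hr (hra.trans ha) (hra.trans h2)

/-- **The torus `T₁₂`.** -/
theorem exists_torus (hq : IsPrimePow q) (hK : Fintype.card K = q ^ 3) (h4 : 4 ≤ q)
    [Fintype (IrrCharacter ↥(twistedD4 K q))] :
    ∃ (A : Subgroup ↥(twistedD4 K q)) (s : ℕ), IsCyclic A ∧ Nat.card A = q ^ 4 - q ^ 2 + 1 ∧ IsCC A ∧
      s * 4 + 1 = q ^ 4 - q ^ 2 + 1 ∧ 7 ≤ s ∧ Nonempty (H678.CCExact.CCData A s 4) ∧ len A = 4 := by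
  have hfin : Finite ↥(twistedD4 K q) := inferInstance
  have hcard := S1067.result (K := K) hq hK
  obtain ⟨N, hN⟩ : ∃ N, N = q ^ 4 - q ^ 2 + 1 := ⟨_, rfl⟩
  have hq0 : 0 < q := by omega
  have hle : q ^ 2 ≤ q ^ 4 := Nat.pow_le_pow_right hq0 (by norm_num)
  have hNz : (N : ℤ) = 1 - (q : ℤ) ^ 2 + (q : ℤ) ^ 4 := by
    rw [hN]
    push_cast [Nat.cast_sub hle]
    ring
  obtain ⟨s, hs⟩ : ∃ s, s * 4 = q ^ 4 - q ^ 2 := by
    have h : 4 ∣ q ^ 4 - q ^ 2 := by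
      have e : q ^ 4 - q ^ 2 = q ^ 2 * (q ^ 2 - 1) := by
        rw [Nat.mul_sub, mul_one]
        ring_nf
      rw [e]
      rcases Nat.even_or_odd' q with ⟨m, rfl | rfl⟩
      · exact dvd_mul_of_dvd_left ⟨m ^ 2, by ring⟩ _
      · refine dvd_mul_of_dvd_right ⟨m ^ 2 + m, ?_⟩ _
        apply Nat.sub_eq_of_eq_add
        ring
    obtain ⟨s, hs⟩ := h
    exact ⟨s, by rw [hs, mul_comm]⟩
  have hbig : 240 ≤ q ^ 4 - q ^ 2 := by
    have e : q ^ 4 = q ^ 2 * q ^ 2 := by ring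
    have h1 : 16 ≤ q ^ 2 := by nlinarith
    have h2 : 16 * q ^ 2 ≤ q ^ 2 * q ^ 2 := Nat.mul_le_mul_right _ h1
    omega
  obtain ⟨A, hAc, hAN, hAz⟩ := Cfsg.Agent.H129.CycT.exact_tD4_12 (F := K) hq hK hNz
  have hCC : CC A := cc_of_cyclic hAc hAz
  have hc : (Nat.card ↥(twistedD4 K q) : ℤ) = N * ((q : ℤ) ^ 12 * ((q : ℤ) ^ 2 - 1) *
      ((q : ℤ) ^ 6 - 1) * (1 + (q : ℤ) ^ 2 + (q : ℤ) ^ 4)) := by
    have hsub : ∀ d, ((q ^ d - 1 : ℕ) : ℤ) = (q : ℤ) ^ d - 1 := by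
      intro d
      rw [Nat.cast_sub (Nat.one_le_pow _ _ hq0)]
      push_cast
      rfl
    rw [hcard, Nat.cast_mul, Nat.cast_mul, Nat.cast_mul, hsub, hsub, hNz]
    push_cast
    ring
  have hmod : (((q : ℤ) ^ 12 * ((q : ℤ) ^ 2 - 1) *
      ((q : ℤ) ^ 6 - 1) * (1 + (q : ℤ) ^ 2 + (q : ℤ) ^ 4) : ℤ) : ZMod N) = ((4 : ℕ) : ZMod N) := by
    have h6 : ((1 - (q : ℤ) ^ 2 + (q : ℤ) ^ 4 : ℤ) : ZMod N) = 0 := by
      rw [← hNz]
      simp
    push_cast at h6 ⊢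
    exact mod_D4_12 h6
  have he : eIdx A = 4 := eIdx_of_int hCC hAN (by omega) (by omega) hc hmod
  have hlen : len A = 4 := by
    rw [← he]
    unfold len
    rw [← eIdx_mul A]
    exact Nat.mul_div_cancel_left _ Nat.card_pos
  have hne : A ≠ ⊥ := by
    rintro rfl
    rw [Subgroup.card_bot] at hAN
    omega
  have hIs : IsCC A := ⟨hne, hAz⟩
  refine ⟨A, s, hAc, by rw [hAN, hN], hIs, by omega, by omega, ?_, hlen⟩
  let _ : Fintype ↥(twistedD4 K q) := Fintype.ofFinite _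
  exact H678.CCExact.nonempty_ccData hIs hlen (by rw [hAN, hN]; omega) (by omega)

/-- `T₁₂` meets no conjugate of a proper parabolic subgroup -/
theorem conj_notmem (hq : IsPrimePow q) (hK : Fintype.card K = q ^ 3) (hφ : ∀ x, φ x = x ^ q)
    {A : Subgroup ↥(twistedD4 K q)} (hA : Nat.card A = q ^ 4 - q ^ 2 + 1) {J : Set (Fin 2)} (hJ : J ≠ Set.univ)
    {a : ↥(twistedD4 K q)} (ha : a ∈ A) (ha1 : a ≠ 1) (g : ↥(twistedD4 K q)) :
    g⁻¹ * a * g ∉ PJ CoxeterMatrix.G₂.toCoxeterSystem isCartan (T K q) (X φ q) J := by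
  have h1 : orderOf a ∣ q ^ 4 - q ^ 2 + 1 := by
    have := orderOf_dvd_natCard (⟨a, ha⟩ : A)
    rwa [← Subgroup.orderOf_coe, hA] at this
  have h2 : orderOf (g⁻¹ * a * g) = orderOf a := by
    have e : g⁻¹ * a * g = MulAut.conj g⁻¹ a := by simp
    rw [e]
    exact orderOf_injective (MulAut.conj g⁻¹).toMonoidHom (MulAut.conj g⁻¹).injective a
  refine notmem hq hK hφ (by rw [h2]; exact h1) (fun h => ha1 ?_) hJ
  rw [← orderOf_eq_one_iff, ← h2, h, orderOf_one]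

/-- an element `≠ 1` of `T₁₂` fixes no coset of a proper parabolic subgroup -/
theorem fixedBy_eq_zero (hq : IsPrimePow q) (hK : Fintype.card K = q ^ 3) (hφ : ∀ x, φ x = x ^ q)
    {A : Subgroup ↥(twistedD4 K q)} (hA : Nat.card A = q ^ 4 - q ^ 2 + 1) {J : Set (Fin 2)} (hJ : J ≠ Set.univ)
    {a : ↥(twistedD4 K q)} (ha : a ∈ A) (ha1 : a ≠ 1) :
    Nat.card (MulAction.fixedBy (↥(twistedD4 K q) ⧸
      PJ CoxeterMatrix.G₂.toCoxeterSystem isCartan (T K q) (X φ q) J) a) = 0 := by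
  rw [Nat.card_eq_zero]
  left
  refine ⟨fun ⟨z, hz⟩ => ?_⟩
  obtain ⟨g, rfl⟩ := QuotientGroup.mk_surjective z
  have h1 : (QuotientGroup.mk (a * g) : ↥(twistedD4 K q) ⧸
      PJ CoxeterMatrix.G₂.toCoxeterSystem isCartan (T K q) (X φ q) J) = QuotientGroup.mk g := hz
  rw [QuotientGroup.eq] at h1
  refine conj_notmem hq hK hφ hA hJ ha ha1 g ?_
  have := inv_mem h1
  have e : ((a * g)⁻¹ * g)⁻¹ = g⁻¹ * a * g := by group
  rwa [e] at this

/-- an element of prime order in `T₁₂` -/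
theorem exists_prime {A : Subgroup ↥(twistedD4 K q)} (hA : 1 < Nat.card A) :
    ∃ x ∈ A, x ≠ 1 ∧ (orderOf x).Prime := by
  have hfin : Finite ↥(twistedD4 K q) := inferInstance
  obtain ⟨r, hr, hrA⟩ := Nat.exists_prime_and_dvd hA.ne'
  have : Fact r.Prime := ⟨hr⟩
  obtain ⟨x, hx⟩ := exists_prime_orderOf_dvd_card' (G := A) r hrA
  refine ⟨x, x.2, ?_, ?_⟩
  · intro h
    have h1 : x = 1 := Subtype.ext h
    rw [h1, orderOf_one] at hx
    exact hr.one_lt.ne hx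
  · rw [Subgroup.orderOf_coe, hx]
    exact hr

end Cfsg.Agent.H911.TW.D4
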