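import Cfsg.Agent.H911.TW.CC

/-!
# `³D₄(q)`: the centralisers of the elements `≠ 1` of `T₁₂` are prime to `p`; the torus in one statement (helper911)
-/

set_option autoImplicit false

namespace Cfsg.Agent.H911.TW.D4

open Cfsg Cfsg.Agent.Nodes.LeviDec Cfsg.Lie Cfsg.Agent.ChevalleyStructure Cfsg.Agent.Nodes.RGDTwD4
open Cfsg.Agent.Characters.CCBasic Cfsg.Agent.Characters.CCEstimates

universe u

variable {K : Type u} [Field K] [Fintype K] {q : ℕ} {φ : K →+* K}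

theorem not_dvd_centralizer {G : Type*} [Group G] {A : Subgroup G} (hA : IsCC A) (hN : Nat.card A = q ^ 4 - q ^ 2 + 1)
    {p f : ℕ} (hp : p.Prime) (hf : f ≠ 0) (hq : q = p ^ f) {a : G} (ha : a ∈ A) (ha1 : a ≠ 1) :
    ¬ p ∣ Nat.card (Subgroup.centralizer ({a} : Set G)) := by
  rw [hA.cent a ha ha1, hN]
  intro h
  have h1 := (not_dvd (q := q) rfl hp h).1
  exact h1 (by rw [hq]; exact dvd_pow_self p hf)

/-- **the torus `T₁₂`, everything** -/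
theorem exists_torus_all (hq : IsPrimePow q) (hK : Fintype.card K = q ^ 3) (hφ : ∀ x, φ x = x ^ q) (h4 : 4 ≤ q) :
    ∃ A : Subgroup ↥(twistedD4 K q), IsCC A ∧ len A = 4 ∧ Nat.card A = q ^ 4 - q ^ 2 + 1 ∧
      (Nat.card A : ℤ) = (q : ℤ) ^ 4 - q ^ 2 + 1 ∧
      (∀ a ∈ A, a ≠ 1 → ∀ J : Set (Fin 2), J ≠ Set.univ → ∀ g : ↥(twistedD4 K q),
        g⁻¹ * a * g ∉ PJ CoxeterMatrix.G₂.toCoxeterSystem isCartan (T K q) (X φ q) J) ∧
      (∀ a ∈ A, a ≠ 1 → ∀ p f : ℕ, p.Prime → f ≠ 0 → q = p ^ f →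
        ¬ p ∣ Nat.card (Subgroup.centralizer ({a} : Set ↥(twistedD4 K q)))) ∧
      ∃ x ∈ A, x ≠ 1 ∧ (orderOf x).Prime := by
  classical
  have hfin : Finite (IrrCharacter ↥(twistedD4 K q)) := Cfsg.Agent.Characters.Core.finite_irr
  let _ : Fintype (IrrCharacter ↥(twistedD4 K q)) := Fintype.ofFinite _
  obtain ⟨A, s, -, hN, hA, hs, h7, -, hlen⟩ := exists_torus hq hK h4
  have hle : q ^ 2 ≤ q ^ 4 := Nat.pow_le_pow_right (by omega) (by norm_num)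
  refine ⟨A, hA, hlen, hN, ?_, fun a ha ha1 J hJ g => conj_notmem hq hK hφ hN hJ ha ha1 g,
    fun a ha ha1 p f hp hf hpf => not_dvd_centralizer hA hN hp hf hpf ha ha1, exists_prime (by rw [hN]; omega)⟩
  rw [hN]
  push_cast [Nat.cast_sub hle]
  ring

end Cfsg.Agent.H911.TW.D4
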