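import Mathlib
import Cfsg.Agent.Nodes.LeviDec
import Cfsg.Prelude.Def_Characters

/-!
# Inner products of parabolic permutation characters of groups with a root group datum (helper911)

`Cfsg.Agent.H911.TW.*`

* `sum_fixedBy_mul` : `∑_g |fix_{G/P} g| |fix_{G/Q} g| = #(orbits on G/P × G/Q) |G|`;
* `card_orbits` : the orbits on `Y/P_J × Y/P_K` are the classes `W_J \ W / W_K`;
* `g2Equiv` : the Coxeter group of type `G₂` is `DihedralGroup 6`;
* `cnt_g2` : `∑_g |fix_{Y/P_J} g| |fix_{Y/P_K} g| = n |Y|` for type `G₂`, the numbers `n` by `decide`: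
  `cnt_empty_empty` (12), `cnt_empty_single` (6), `cnt_single_single` (4), `cnt_zero_one` (3), ...;
* `inner_...` : the versions with `classInner`.
-/

set_option autoImplicit false
set_option linter.unusedSectionVars false

namespace Cfsg.Agent.H911.TW

open Cfsg CoxeterSystem Cfsg.Agent.ChevalleyStructure.CoxeterGeom Cfsg.Agent.Tits.Roots Cfsg.Agent.Tits.Core
  Cfsg.Agent.Tits.Exchange Cfsg.Agent.Nodes.Reps Cfsg.Agent.Nodes.BNOf Cfsg.Agent.Nodes.StabComb
  Cfsg.Agent.Nodes.Bruhat Cfsg.Agent.Nodes.OppDec Cfsg.Agent.Nodes.LeviDec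

/-! ### Burnside -/

section Burnside

variable {G : Type*} [Group G]

theorem card_fixedBy_prod {α β : Type*} [MulAction G α] [MulAction G β] (g : G) :
    Nat.card (MulAction.fixedBy (α × β) g) = Nat.card (MulAction.fixedBy α g) * Nat.card (MulAction.fixedBy β g) := by
  rw [← Nat.card_prod]
  refine Nat.card_congr
    { toFun := fun x => (⟨x.1.1, congrArg Prod.fst x.2⟩, ⟨x.1.2, congrArg Prod.snd x.2⟩)
      invFun := fun y => ⟨(y.1.1, y.2.1), Prod.ext y.1.2 y.2.2⟩
      left_inv := fun x => rfl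
      right_inv := fun y => rfl }

theorem sum_fixedBy_mul [Fintype G] {α β : Type*} [MulAction G α] [MulAction G β] [Finite α] [Finite β] :
    ∑ g : G, Nat.card (MulAction.fixedBy α g) * Nat.card (MulAction.fixedBy β g) =
      Nat.card (MulAction.orbitRel.Quotient G (α × β)) * Nat.card G := by
  classical
  let _ : Fintype (α × β) := Fintype.ofFinite _
  let _ : ∀ g : G, Fintype (MulAction.fixedBy (α × β) g) := fun g => Fintype.ofFinite _
  let _ : Fintype (MulAction.orbitRel.Quotient G (α × β)) := Fintype.ofFinite _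
  have h := MulAction.sum_card_fixedBy_eq_card_orbits_mul_card_group G (α × β)
  rw [Nat.card_eq_fintype_card, Nat.card_eq_fintype_card, ← h]
  refine Finset.sum_congr rfl fun g _ => ?_
  rw [← card_fixedBy_prod, Nat.card_eq_fintype_card]

end Burnside

/-! ### The double cosets -/

section Frame

variable {I W Y : Type*} [Fintype I] [DecidableEq I] [Group W] [Group Y] {M : CoxeterMatrix I}
  {cs : CoxeterSystem M W} {A : I → I → ℤ} {h : IsCartan M A} {p : ℕ} {T : Subgroup Y} {n : I → Y}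
  {X : (I → ℤ) → Subgroup Y} (R : RGD cs h p T n X)

include R

theorem cell_mul_left {J : Set I} : ∀ {ω : List I}, (∀ i ∈ ω, i ∈ J) → ∀ {k : Y}, Rp cs R.nsys (cs.wordProd ω) k →
    ∀ {w : W} {b : Y}, Cell R.nsys cs h X w b → ∃ u ∈ WJ cs J, Cell R.nsys cs h X (u * w) (k * b) := by
  intro ω
  induction ω with
  | nil =>
    intro _ k hk w b hb
    rw [wordProd_nil] at hk
    refine ⟨1, one_mem _, ?_⟩
    rw [one_mul]
    exact hb.mul_left (RGD.T_le_B hk.mem_of_one)
  | cons i ω ih =>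
    intro hω k hk w b hb
    rw [wordProd_cons] at hk
    have h1 : Rp cs R.nsys (cs.wordProd ω) ((n i)⁻¹ * k) := by
      have := (rp_simple cs R.nsys i).inv.mul hk
      rwa [inv_mul_cancel_left] at this
    obtain ⟨u, hu, hc⟩ := ih (fun j hj => hω j (by simp [hj])) h1 hb
    have hi : i ∈ J := hω i (by simp)
    have e : k * b = n i * ((n i)⁻¹ * k * b) := by group
    rw [e]
    rcases Cell.simple_mul R (cell_of_rp (X := X) (h := h) (rp_simple cs R.nsys i)) hc with h2 | ⟨-, h2⟩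
    · exact ⟨cs.simple i * u, mul_mem (simple_mem_WJ cs hi) hu, by rwa [mul_assoc]⟩
    · exact ⟨u, hu, h2⟩

theorem cell_mul_PJ_left [Finite W] {J : Set I} {x : Y} (hx : x ∈ PJ cs h T X J) {w : W} {b : Y}
    (hb : Cell R.nsys cs h X w b) : ∃ u ∈ WJ cs J, Cell R.nsys cs h X (u * w) (x * b) := by
  obtain ⟨v, hv, b₁, hb₁, k, hk, b₂, hb₂, rfl⟩ := (mem_PJ_iff_cell R).1 hx
  obtain ⟨ω, hω, rfl⟩ := exists_word_of_mem_WJ cs hv
  obtain ⟨u, hu, hc⟩ := cell_mul_left R hω hk (hb.mul_left hb₂)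
  refine ⟨u, hu, ?_⟩
  have e : b₁ * k * b₂ * b = b₁ * (k * (b₂ * b)) := by group
  rw [e]
  exact hc.mul_left hb₁

theorem cell_mul_PJ_right [Finite W] {J : Set I} {x : Y} (hx : x ∈ PJ cs h T X J) {w : W} {b : Y}
    (hb : Cell R.nsys cs h X w b) : ∃ u ∈ WJ cs J, Cell R.nsys cs h X (w * u) (b * x) := by
  obtain ⟨u, hu, hc⟩ := cell_mul_PJ_left R (inv_mem hx) hb.inv
  refine ⟨u⁻¹, inv_mem hu, ?_⟩
  have := hc.inv
  simp only [mul_inv_rev, inv_inv] at this
  exact this

theorem mem_of_double [Finite W] {J K : Set I} {x y : Y} (hx : x ∈ PJ cs h T X J) (hy : y ∈ PJ cs h T X K) {w w' : W}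
    {k k' : Y} (hk : Rp cs R.nsys w k) (hk' : Rp cs R.nsys w' k') (e : k' = x * k * y) :
    ∃ a ∈ WJ cs J, ∃ b ∈ WJ cs K, w' = a * w * b := by
  obtain ⟨a, ha, hc⟩ := cell_mul_PJ_left R hx (cell_of_rp (X := X) (h := h) hk)
  obtain ⟨b, hb, hc'⟩ := cell_mul_PJ_right R hy hc
  refine ⟨a, ha, b, hb, ?_⟩
  rw [← e] at hc'
  exact Cell.unique R (cell_of_rp hk') hc'

/-- the orbits of `Y` on `Y/P_J × Y/P_K` are the classes `W_J \ W / W_K` -/
theorem card_orbits [Finite W] (hG : GG cs h T X = ⊤) (J K : Set I) {ι : Type*} (c : W → ι)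
    (hc : Function.Surjective c)
    (hcc : ∀ w w' : W, c w = c w' ↔ ∃ a ∈ WJ cs J, ∃ b ∈ WJ cs K, w' = a * w * b) :
    Nat.card (MulAction.orbitRel.Quotient Y ((Y ⧸ PJ cs h T X J) × (Y ⧸ PJ cs h T X K))) = Nat.card ι := by
  classical
  set P := PJ cs h T X J with hP
  set Q := PJ cs h T X K with hQ
  choose k hk using fun w : W => exists_rp cs R.nsys w
  let F : W → MulAction.orbitRel.Quotient Y ((Y ⧸ P) × (Y ⧸ Q)) := fun w =>
    Quotient.mk'' ((QuotientGroup.mk 1 : Y ⧸ P), (QuotientGroup.mk (k w) : Y ⧸ Q))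
  have hF : Function.Surjective F := by
    intro z
    induction z using Quotient.inductionOn' with
    | h z =>
      obtain ⟨z₁, z₂⟩ := z
      obtain ⟨a, rfl⟩ := QuotientGroup.mk_surjective z₁
      obtain ⟨b, rfl⟩ := QuotientGroup.mk_surjective z₂
      obtain ⟨w, b₁, hb₁, g, hg, b₂, hb₂, e⟩ := (mem_GG R).1
        (show a⁻¹ * b ∈ GG cs h T X by rw [hG]; exact Subgroup.mem_top _)
      refine ⟨w, ?_⟩
      -- `g = k w * t`
      have ht : (k w)⁻¹ * g ∈ T := (hk w).unique hg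
      refine Quotient.sound' ?_
      show MulAction.orbitRel Y _ _ _
      rw [MulAction.orbitRel_apply]
      refine ⟨(a * b₁)⁻¹, ?_⟩
      refine Prod.ext ?_ ?_
      · show (QuotientGroup.mk ((a * b₁)⁻¹ * a) : Y ⧸ P) = QuotientGroup.mk 1
        rw [QuotientGroup.eq]
        have e1 : ((a * b₁)⁻¹ * a)⁻¹ * 1 = b₁ := by group
        rw [e1]
        exact B_le_PJ hb₁
      · show (QuotientGroup.mk ((a * b₁)⁻¹ * b) : Y ⧸ Q) = QuotientGroup.mk (k w)
        rw [QuotientGroup.eq]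
        have e2 : b = a * (b₁ * g * b₂) := by rw [← e]; group
        have e3 : ((a * b₁)⁻¹ * b)⁻¹ * k w = b₂⁻¹ * ((k w)⁻¹ * g)⁻¹ := by
          rw [e2]; group
        rw [e3]
        exact mul_mem (inv_mem (B_le_PJ hb₂)) (inv_mem (B_le_PJ (RGD.T_le_B ht)))
  have hFF : ∀ w w', F w = F w' ↔ c w = c w' := by
    intro w w'
    rw [hcc]
    constructor
    · intro e
      have h1 := Quotient.exact' e
      change MulAction.orbitRel Y _ _ _ at h1
      rw [MulAction.orbitRel_apply] at h1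
      obtain ⟨y, hy⟩ := h1
      have hy1 : (QuotientGroup.mk (y * 1) : Y ⧸ P) = QuotientGroup.mk 1 := congrArg Prod.fst hy
      have hy2 : (QuotientGroup.mk (y * k w') : Y ⧸ Q) = QuotientGroup.mk (k w) := congrArg Prod.snd hy
      rw [QuotientGroup.eq] at hy1 hy2
      have hy1' : y⁻¹ ∈ P := by simpa using hy1
      refine mem_of_double R (x := y⁻¹) (y := ((y * k w')⁻¹ * k w)⁻¹) hy1' (inv_mem hy2) (hk w) (hk w') ?_
      group
    · rintro ⟨a, ha, b, hb, e⟩
      -- `k w' = k a * k w * k b * t`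
      have h1 : Rp cs R.nsys w' (k a * k w * k b) := by
        rw [e]
        exact ((hk a).mul (hk w)).mul (hk b)
      have ht : (k a * k w * k b)⁻¹ * k w' ∈ T := h1.unique (hk w')
      have ha' : k a ∈ P := LJ_le_PJ (rp_mem_LJ R ha (hk a))
      have hb' : k b ∈ Q := LJ_le_PJ (rp_mem_LJ R hb (hk b))
      refine Quotient.sound' ?_
      show MulAction.orbitRel Y _ _ _
      rw [MulAction.orbitRel_apply]
      refine ⟨(k a)⁻¹, ?_⟩
      refine Prod.ext ?_ ?_
      · show (QuotientGroup.mk ((k a)⁻¹ * 1) : Y ⧸ P) = QuotientGroup.mk 1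
        rw [QuotientGroup.eq]
        simpa using ha'
      · show (QuotientGroup.mk ((k a)⁻¹ * k w') : Y ⧸ Q) = QuotientGroup.mk (k w)
        rw [QuotientGroup.eq]
        have e3 : ((k a)⁻¹ * k w')⁻¹ * k w = ((k a * k w * k b)⁻¹ * k w')⁻¹ * (k b)⁻¹ := by group
        rw [e3]
        exact mul_mem (inv_mem (B_le_PJ (RGD.T_le_B ht))) (inv_mem hb')
  refine Nat.card_congr (Equiv.ofBijective (fun z => c (Function.surjInv hF z)) ⟨?_, ?_⟩)
  · intro z z' e
    have := (hFF _ _).2 e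
    rwa [Function.surjInv_eq hF, Function.surjInv_eq hF] at this
  · intro i
    obtain ⟨w, rfl⟩ := hc i
    exact ⟨F w, (hFF _ _).1 (Function.surjInv_eq hF (F w))⟩

/-- with a finite model `D` of the Weyl group -/
theorem card_orbits_model [Finite W] (hG : GG cs h T X = ⊤) {D : Type*} [Group D] [Fintype D] [DecidableEq D]
    (φ : W ≃* D) (J K : Set I) (AJ AK : Finset D) (hJ : ∀ w, w ∈ WJ cs J ↔ φ w ∈ AJ)
    (hK : ∀ w, w ∈ WJ cs K ↔ φ w ∈ AK) :
    Nat.card (MulAction.orbitRel.Quotient Y ((Y ⧸ PJ cs h T X J) × (Y ⧸ PJ cs h T X K))) =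
      (Finset.univ.image fun x : D => (AJ ×ˢ AK).image fun ab => ab.1 * x * ab.2).card := by
  classical
  let c0 : D → Finset D := fun x => (AJ ×ˢ AK).image fun ab => ab.1 * x * ab.2
  have h0 : ∀ (x y : D), y ∈ c0 x ↔ ∃ a ∈ AJ, ∃ b ∈ AK, y = a * x * b := by
    intro x y
    simp only [c0, Finset.mem_image, Finset.mem_product, Prod.exists]
    constructor
    · rintro ⟨a, b, ⟨ha, hb⟩, e⟩
      exact ⟨a, ha, b, hb, e.symm⟩
    · rintro ⟨a, ha, b, hb, e⟩
      exact ⟨a, b, ⟨ha, hb⟩, e.symm⟩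
  have hAJ : ∀ x, x ∈ AJ ↔ φ.symm x ∈ WJ cs J := fun x => by rw [hJ, MulEquiv.apply_symm_apply]
  have hAK : ∀ x, x ∈ AK ↔ φ.symm x ∈ WJ cs K := fun x => by rw [hK, MulEquiv.apply_symm_apply]
  have mJ : ∀ x y, x ∈ AJ → y ∈ AJ → x * y ∈ AJ := fun x y hx hy => by
    rw [hAJ] at *; rw [map_mul]; exact mul_mem hx hy
  have mK : ∀ x y, x ∈ AK → y ∈ AK → x * y ∈ AK := fun x y hx hy => by
    rw [hAK] at *; rw [map_mul]; exact mul_mem hx hy
  have iJ : ∀ x, x ∈ AJ → x⁻¹ ∈ AJ := fun x hx => by rw [hAJ] at *; rw [map_inv]; exact inv_mem hx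
  have iK : ∀ x, x ∈ AK → x⁻¹ ∈ AK := fun x hx => by rw [hAK] at *; rw [map_inv]; exact inv_mem hx
  have oJ : (1 : D) ∈ AJ := by rw [hAJ, map_one]; exact one_mem _
  have oK : (1 : D) ∈ AK := by rw [hAK, map_one]; exact one_mem _
  have hself : ∀ x, x ∈ c0 x := fun x => (h0 x x).2 ⟨1, oJ, 1, oK, by group⟩
  have hsub : ∀ x y, y ∈ c0 x → c0 y ⊆ c0 x := by
    intro x y hy z hz
    obtain ⟨a, ha, b, hb, rfl⟩ := (h0 _ _).1 hy
    obtain ⟨a', ha', b', hb', rfl⟩ := (h0 _ _).1 hz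
    exact (h0 _ _).2 ⟨a' * a, mJ _ _ ha' ha, b * b', mK _ _ hb hb', by group⟩
  have hsymm : ∀ x y, y ∈ c0 x → x ∈ c0 y := by
    intro x y hy
    obtain ⟨a, ha, b, hb, rfl⟩ := (h0 _ _).1 hy
    exact (h0 _ _).2 ⟨a⁻¹, iJ _ ha, b⁻¹, iK _ hb, by group⟩
  have heq : ∀ x y, c0 x = c0 y ↔ ∃ a ∈ AJ, ∃ b ∈ AK, y = a * x * b := by
    intro x y
    rw [← h0]
    constructor
    · intro e; rw [e]; exact hself y
    · intro hy
      exact Finset.Subset.antisymm (hsub _ _ (hsymm _ _ hy)) (hsub _ _ hy)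
  have h1 := card_orbits R hG J K (ι := ↥(Finset.univ.image c0))
    (fun w => ⟨c0 (φ w), Finset.mem_image_of_mem _ (Finset.mem_univ _)⟩) (by
      rintro ⟨s, hs⟩
      obtain ⟨x, -, rfl⟩ := Finset.mem_image.1 hs
      exact ⟨φ.symm x, Subtype.ext (by simp)⟩) (by
      intro w w'
      rw [Subtype.mk.injEq, heq]
      constructor
      · rintro ⟨a, ha, b, hb, e⟩
        refine ⟨φ.symm a, (hAJ a).1 ha, φ.symm b, (hAK b).1 hb, φ.injective ?_⟩
        simp [e]
      · rintro ⟨a, ha, b, hb, rfl⟩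
        exact ⟨φ a, (hJ a).1 ha, φ b, (hK b).1 hb, by simp⟩)
  rw [h1, Nat.card_eq_fintype_card, Fintype.card_coe]

end Frame

/-! ### Type `G₂` -/

section GTwo

variable {W : Type*} [Group W] (cs : CoxeterSystem CoxeterMatrix.G₂ W)

theorem liftable_g2 :
    CoxeterMatrix.G₂.IsLiftable (fun i : Fin 2 => (DihedralGroup.sr (i.val : ZMod 6) : DihedralGroup 6)) := by
  intro i j
  fin_cases i <;> fin_cases j <;> decide

/-- the homomorphism to the dihedral group -/
noncomputable def toD : W →* DihedralGroup 6 := cs.lift ⟨_, liftable_g2⟩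

theorem toD_simple (i : Fin 2) : toD cs (cs.simple i) = DihedralGroup.sr (i.val : ZMod 6) :=
  cs.lift_apply_simple liftable_g2 i

/-- the inverse map -/
noncomputable def ofD : DihedralGroup 6 → W
  | .r k => (cs.simple 0 * cs.simple 1) ^ k.val
  | .sr k => cs.simple 0 * (cs.simple 0 * cs.simple 1) ^ k.val

theorem toD_ofD (x : DihedralGroup 6) : toD cs (ofD cs x) = x := by
  have h : ∀ k : ZMod 6, toD cs ((cs.simple 0 * cs.simple 1) ^ k.val) = DihedralGroup.r k := by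
    intro k
    rw [map_pow, map_mul, toD_simple, toD_simple]
    revert k
    decide
  cases x with
  | r k => exact h k
  | sr k =>
    show toD cs (cs.simple 0 * (cs.simple 0 * cs.simple 1) ^ k.val) = _
    rw [map_mul, h, toD_simple]
    revert k
    decide

theorem rel_six : (cs.simple 0 * cs.simple 1) ^ 6 = 1 := by
  have := cs.simple_mul_simple_pow 0 1
  exact this

theorem simple_zero_mul (x : DihedralGroup 6) : ∃ y, cs.simple 0 * ofD cs x = ofD cs y := by
  cases x with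
  | r k => exact ⟨.sr k, rfl⟩
  | sr k => exact ⟨.r k, by show cs.simple 0 * (cs.simple 0 * _) = _; rw [simple_mul_simple_cancel_left]; rfl⟩

theorem pow_mod (m : ℕ) : (cs.simple 0 * cs.simple 1) ^ m = (cs.simple 0 * cs.simple 1) ^ ((m : ZMod 6).val) := by
  rw [ZMod.val_natCast]
  conv_lhs => rw [← Nat.div_add_mod m 6, pow_add, pow_mul, rel_six, one_pow, one_mul]

theorem simple_one_mul (x : DihedralGroup 6) : ∃ y, cs.simple 1 * ofD cs x = ofD cs y := by
  cases x with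
  | r k =>
    refine ⟨.sr ((k.val + 1 : ℕ) : ZMod 6), ?_⟩
    show cs.simple 1 * _ ^ k.val = cs.simple 0 * _ ^ _
    rw [← pow_mod, pow_succ', ← mul_assoc (cs.simple 0), ← mul_assoc (cs.simple 0), simple_mul_simple_self, one_mul]
  | sr k =>
    refine ⟨.r ((k.val + 5 : ℕ) : ZMod 6), ?_⟩
    show cs.simple 1 * (cs.simple 0 * _ ^ k.val) = _ ^ _
    rw [← pow_mod, add_comm, pow_add, ← mul_assoc]
    congr 1
    have h1 : cs.simple 1 * cs.simple 0 * (cs.simple 0 * cs.simple 1) = 1 := by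
      rw [mul_assoc, simple_mul_simple_cancel_left, simple_mul_simple_self]
    have h2 := rel_six cs
    rw [pow_succ'] at h2
    exact mul_eq_one_iff_eq_inv.1 h1 |>.trans (mul_eq_one_iff_inv_eq.1 h2)

theorem ofD_surj : Function.Surjective (ofD cs) := by
  intro w
  obtain ⟨ω, rfl⟩ := cs.wordProd_surjective w
  induction ω with
  | nil => exact ⟨.r 0, by rw [wordProd_nil]; show _ ^ (0 : ZMod 6).val = _; rw [ZMod.val_zero, pow_zero]⟩
  | cons i ω ih =>
    obtain ⟨x, hx⟩ := ih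
    rw [wordProd_cons, ← hx]
    fin_cases i
    · obtain ⟨y, hy⟩ := simple_zero_mul cs x
      exact ⟨y, hy.symm⟩
    · obtain ⟨y, hy⟩ := simple_one_mul cs x
      exact ⟨y, hy.symm⟩

/-- the Coxeter group of type `G₂` is the dihedral group of order 12 -/
noncomputable def g2Equiv : W ≃* DihedralGroup 6 :=
  MulEquiv.ofBijective (toD cs) ⟨fun w w' e => by
    obtain ⟨x, rfl⟩ := ofD_surj cs w
    obtain ⟨y, rfl⟩ := ofD_surj cs w'
    rw [toD_ofD, toD_ofD] at e
    rw [e], fun x => ⟨ofD cs x, toD_ofD cs x⟩⟩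

theorem g2Equiv_simple (i : Fin 2) : g2Equiv cs (cs.simple i) = DihedralGroup.sr (i.val : ZMod 6) := toD_simple cs i

/-- the image of `W_J` for `J = ∅` -/
theorem mem_WJ_empty (w : W) : w ∈ WJ cs (∅ : Set (Fin 2)) ↔ g2Equiv cs w ∈ ({1} : Finset (DihedralGroup 6)) := by
  unfold WJ
  rw [Set.image_empty, Subgroup.closure_empty, Subgroup.mem_bot, Finset.mem_singleton]
  exact ((g2Equiv cs).map_eq_one_iff).symm

/-- the image of `W_J` for `J = {i}` -/
theorem mem_WJ_single (i : Fin 2) (w : W) : w ∈ WJ cs ({i} : Set (Fin 2)) ↔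
    g2Equiv cs w ∈ ({1, DihedralGroup.sr (i.val : ZMod 6)} : Finset (DihedralGroup 6)) := by
  unfold WJ
  rw [Set.image_singleton, Finset.mem_insert, Finset.mem_singleton, ← g2Equiv_simple cs i,
    (g2Equiv cs).map_eq_one_iff, (g2Equiv cs).apply_eq_iff_eq, Subgroup.mem_closure_singleton]
  constructor
  · rintro ⟨k, rfl⟩
    rcases Int.even_or_odd' k with ⟨m, rfl | rfl⟩
    · left
      rw [zpow_mul, show cs.simple i ^ (2 : ℤ) = 1 by rw [zpow_ofNat, pow_two, simple_mul_simple_self], one_zpow]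
    · right
      rw [zpow_add, zpow_mul, show cs.simple i ^ (2 : ℤ) = 1 by rw [zpow_ofNat, pow_two, simple_mul_simple_self],
        one_zpow, one_mul, zpow_one]
  · rintro (rfl | rfl)
    · exact ⟨0, zpow_zero _⟩
    · exact ⟨1, zpow_one _⟩

end GTwo

/-! ### The numbers -/

section Num

variable {W Y : Type*} [Group W] [Group Y]
  {cs : CoxeterSystem CoxeterMatrix.G₂ W} {A : Fin 2 → Fin 2 → ℤ} {h : IsCartan CoxeterMatrix.G₂ A} {p : ℕ}
  {T : Subgroup Y} {n : Fin 2 → Y} {X : (Fin 2 → ℤ) → Subgroup Y} (R : RGD cs h p T n X) [Finite W] [Fintype Y]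
  (hG : GG cs h T X = ⊤)

include R hG

/-- the sum of the products of the fixed point numbers -/
theorem sum_eq (J K : Set (Fin 2)) (AJ AK : Finset (DihedralGroup 6)) (hJ : ∀ w, w ∈ WJ cs J ↔ g2Equiv cs w ∈ AJ)
    (hK : ∀ w, w ∈ WJ cs K ↔ g2Equiv cs w ∈ AK) {m : ℕ}
    (hm : (Finset.univ.image fun x : DihedralGroup 6 => (AJ ×ˢ AK).image fun ab => ab.1 * x * ab.2).card = m) :
    ∑ g : Y, Nat.card (MulAction.fixedBy (Y ⧸ PJ cs h T X J) g) * Nat.card (MulAction.fixedBy (Y ⧸ PJ cs h T X K) g) =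
      m * Nat.card Y := by
  rw [sum_fixedBy_mul, card_orbits_model R hG (g2Equiv cs) J K AJ AK hJ hK, hm]

theorem sum_empty_empty :
    ∑ g : Y, Nat.card (MulAction.fixedBy (Y ⧸ PJ cs h T X ∅) g) * Nat.card (MulAction.fixedBy (Y ⧸ PJ cs h T X ∅) g) =
      12 * Nat.card Y :=
  sum_eq R hG ∅ ∅ _ _ (mem_WJ_empty cs) (mem_WJ_empty cs) (by decide +kernel)

theorem sum_empty_single (i : Fin 2) :
    ∑ g : Y, Nat.card (MulAction.fixedBy (Y ⧸ PJ cs h T X ∅) g) * Nat.card (MulAction.fixedBy (Y ⧸ PJ cs h T X {i}) g) =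
      6 * Nat.card Y :=
  sum_eq R hG ∅ {i} _ _ (mem_WJ_empty cs) (mem_WJ_single cs i) (by fin_cases i <;> decide +kernel)

theorem sum_single_single (i : Fin 2) :
    ∑ g : Y, Nat.card (MulAction.fixedBy (Y ⧸ PJ cs h T X {i}) g) * Nat.card (MulAction.fixedBy (Y ⧸ PJ cs h T X {i}) g) =
      4 * Nat.card Y :=
  sum_eq R hG {i} {i} _ _ (mem_WJ_single cs i) (mem_WJ_single cs i) (by fin_cases i <;> decide +kernel)

theorem sum_zero_one :
    ∑ g : Y, Nat.card (MulAction.fixedBy (Y ⧸ PJ cs h T X {0}) g) * Nat.card (MulAction.fixedBy (Y ⧸ PJ cs h T X {1}) g) =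
      3 * Nat.card Y :=
  sum_eq R hG {0} {1} _ _ (mem_WJ_single cs 0) (mem_WJ_single cs 1) (by decide +kernel)

end Num

/-! ### `classInner` -/

section Inner

variable {Y : Type*} [Group Y] [Fintype Y]

/-- the permutation character of `Y` on `Y/P` -/
noncomputable def pc (P : Subgroup Y) : Y → ℂ := fun g => (Nat.card (MulAction.fixedBy (Y ⧸ P) g) : ℂ)

theorem classInner_pc {P Q : Subgroup Y} {m : ℕ}
    (hm : ∑ g : Y, Nat.card (MulAction.fixedBy (Y ⧸ P) g) * Nat.card (MulAction.fixedBy (Y ⧸ Q) g) = m * Nat.card Y) :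
    classInner (pc P) (pc Q) = m := by
  have h0 : (Nat.card Y : ℂ) ≠ 0 := by exact_mod_cast Nat.card_pos.ne'
  unfold classInner pc
  have h1 : ∑ g : Y, (Nat.card (MulAction.fixedBy (Y ⧸ P) g) : ℂ) *
      (starRingEnd ℂ) (Nat.card (MulAction.fixedBy (Y ⧸ Q) g) : ℂ) = (m : ℂ) * Nat.card Y := by
    rw [← Nat.cast_mul, ← hm, Nat.cast_sum]
    refine Finset.sum_congr rfl fun g _ => ?_
    rw [Complex.conj_natCast, Nat.cast_mul]
  rw [h1, mul_comm, mul_assoc, mul_inv_cancel₀ h0, mul_one]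

end Inner

section InnerNum

variable {W Y : Type*} [Group W] [Group Y]
  {cs : CoxeterSystem CoxeterMatrix.G₂ W} {A : Fin 2 → Fin 2 → ℤ} {h : IsCartan CoxeterMatrix.G₂ A} {p : ℕ}
  {T : Subgroup Y} {n : Fin 2 → Y} {X : (Fin 2 → ℤ) → Subgroup Y} (R : RGD cs h p T n X) [Finite W] [Fintype Y]
  (hG : GG cs h T X = ⊤)

include R hG

theorem inner_empty_empty : classInner (pc (PJ cs h T X ∅)) (pc (PJ cs h T X ∅)) = 12 := by
  have := classInner_pc (sum_empty_empty R hG)
  exact_mod_cast this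

theorem inner_empty_single (i : Fin 2) : classInner (pc (PJ cs h T X ∅)) (pc (PJ cs h T X {i})) = 6 := by
  have := classInner_pc (sum_empty_single R hG i)
  exact_mod_cast this

theorem inner_single_single (i : Fin 2) : classInner (pc (PJ cs h T X {i})) (pc (PJ cs h T X {i})) = 4 := by
  have := classInner_pc (sum_single_single R hG i)
  exact_mod_cast this

theorem inner_zero_one : classInner (pc (PJ cs h T X {0})) (pc (PJ cs h T X {1})) = 3 := by
  have := classInner_pc (sum_zero_one R hG)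
  exact_mod_cast this

end InnerNum

end Cfsg.Agent.H911.TW
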